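import Groth.Prelude.Def_Dual3
import Groth.Agent.LoccohB.AdStruct
import Groth.Agent.Models2.SuppPush

/-!
# The trivial compactification `(f, 𝟙)` of an open immersion
-/

set_option autoImplicit false

universe u

open CategoryTheory CategoryTheory.Limits AlgebraicGeometry

attribute [local instance] HasDerivedCategory.standard

namespace Groth.Agent.Dual.H312.IdComp

/-- The trivial compactification of an open immersion `f : X ⟶ Y`: `Xbar = Y`, `fbar = 𝟙`. -/
@[reducible]
noncomputable def idC {X Y : Scheme.{u}} (f : X ⟶ Y) [IsOpenImmersion f] : DEt.Compactification f where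
  Xbar := Y
  j := f
  fbar := 𝟙 Y
  isOpenImmersion := inferInstance
  isProper := inferInstance
  fac := Category.comp_id f

variable (Y : Scheme.{u}) [DCoh.HasRpush (𝟙 Y)]

/-- `R(𝟙)_* ≅ 𝟭`. -/
noncomputable def rpushId : DCoh.Rpush (𝟙 Y) ≅ 𝟭 (DCoh.D Y) :=
  (Groth.Agent.Models2.SuppPush.exists_rpushId (X := Y)).some

theorem preservesQCoh_id : DCoh.RpushPreservesQCoh (𝟙 Y) := fun K hK =>
  Groth.Agent.PerfA.QCohD.isQCohD_of_iso ((rpushId Y).app K).symm hK

/-- `RpushQ (𝟙) ≅ 𝟭`. -/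
noncomputable def rpushQId (h : DCoh.RpushPreservesQCoh (𝟙 Y)) : DCoh.RpushQ (𝟙 Y) h ≅ 𝟭 (DCoh.DQCoh Y) :=
  NatIso.ofComponents (fun K => ObjectProperty.isoMk _ ((rpushId Y).app K.obj)) (fun {K L} g => by
    apply InducedCategory.hom_ext
    exact (rpushId Y).hom.naturality g.hom)

/-- The identity is right adjoint to `R(𝟙)_*` on `D_QCoh`. -/
noncomputable def adjId (h : DCoh.RpushPreservesQCoh (𝟙 Y)) : DCoh.RpushQ (𝟙 Y) h ⊣ 𝟭 (DCoh.DQCoh Y) :=
  Adjunction.id.ofNatIsoLeft (rpushQId Y h).symm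

end Groth.Agent.Dual.H312.IdComp
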